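import Cfsg.Agent.Lib.ZassFrob.Basic
import Mathlib.GroupTheory.Perm.Cycle.Type

/-!
Zassenhaus groups of odd degree: an involution exchanging two points inverts the two-point
stabiliser, and lies in the kernel of the point it fixes.
-/

set_option autoImplicit false

namespace Cfsg.Agent.Lib.Zass

open MulAction Cfsg.Agent.Lib.ZassFrob

variable {G Ω : Type*} [Group G] [Finite G] [MulAction G Ω] (hZ : Cfsg.IsZassenhausGroup G Ω)
include hZ

/-- An element outside the kernel is a kernel conjugate of an element of the two-point stabiliser. -/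
theorem exists_commutator_eq {a b : Ω} (hab : a ≠ b) (K : Subgroup G) (hKa : K ≤ stabilizer G a)
    (hKn : ∀ g ∈ stabilizer G a, ∀ x ∈ K, g * x * g⁻¹ ∈ K) (hKb : K ⊓ stabilizer G b = ⊥)
    {h : G} (hh : h ∈ stabilizer G a ⊓ stabilizer G b) (hh1 : h ≠ 1) {v : G} (hv : v ∈ K) :
    ∃ w ∈ K, w * h * w⁻¹ * h⁻¹ = v := by
  let c : K → K := fun w => ⟨(w : G) * (h * (w : G)⁻¹ * h⁻¹),
    mul_mem w.2 (hKn h hh.1 _ (inv_mem w.2))⟩
  have hc : Function.Injective c := by
    intro w w' e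
    have e' : (w : G) * (h * (w : G)⁻¹ * h⁻¹) = (w' : G) * (h * (w' : G)⁻¹ * h⁻¹) :=
      congrArg Subtype.val e
    have hcomm : (w' : G)⁻¹ * w * h = h * ((w' : G)⁻¹ * w) := by
      calc (w' : G)⁻¹ * w * h = (w' : G)⁻¹ * ((w : G) * (h * (w : G)⁻¹ * h⁻¹)) * h * (h⁻¹ * h) * w := by
            group
        _ = _ := by rw [e']; group
    have hz : (w' : G)⁻¹ * w ∈ K := mul_mem (inv_mem w'.2) w.2
    have hfix : h • (((w' : G)⁻¹ * w) • b) = ((w' : G)⁻¹ * w) • b := by
      rw [smul_smul, ← hcomm, mul_smul, mem_stabilizer_iff.mp hh.2]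
    rcases eq_or_eq_of_fix hZ hh1 hab hh.1 hh.2 hfix with e1 | e1
    · exact absurd (MulAction.injective _ ((hKa hz : _).trans e1.symm)) hab
    · exact Subtype.ext (inv_mul_eq_one.mp
        (Subgroup.mem_bot.mp (hKb ▸ ⟨hz, e1⟩ : (w' : G)⁻¹ * w ∈ (⊥ : Subgroup G)))).symm
  obtain ⟨w, hw⟩ := (Finite.injective_iff_surjective.mp hc) ⟨v, hv⟩
  have hw' : (w : G) * (h * (w : G)⁻¹ * h⁻¹) = v := congrArg Subtype.val hw
  exact ⟨w, w.2, by rw [← hw']; simp [mul_assoc]⟩

theorem two_point_odd [Fintype Ω] (hodd : Odd (Fintype.card Ω)) {a b : Ω} (hab : a ≠ b) :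
    Odd (Nat.card ↥(stabilizer G a ⊓ stabilizer G b)) := by
  have h1 := card_twoPt_dvd hZ hab
  have h2 := two_lt_card hZ hab
  rw [Nat.card_eq_fintype_card (α := Ω)] at h1 h2
  refine Odd.of_dvd_nat ?_ h1
  obtain ⟨k, hk⟩ := hodd
  exact ⟨k - 1, by omega⟩

theorem exists_inverting_involution [Fintype Ω] (hodd : Odd (Fintype.card Ω)) {a b : Ω}
    (hab : a ≠ b) :
    ∃ s : G, s • a = b ∧ s • b = a ∧ s * s = 1 ∧
      ∀ h ∈ stabilizer G a ⊓ stabilizer G b, s * h * s⁻¹ = h⁻¹ := by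
  classical
  obtain ⟨t, hta, htb⟩ := exists_map_pair hZ hab hab.symm
  set H := stabilizer G a ⊓ stabilizer G b
  obtain ⟨k, hk⟩ := two_point_odd hZ hodd hab
  have htt : t * t ∈ H := ⟨show (t * t) • a = a by rw [mul_smul, hta, htb],
    show (t * t) • b = b by rw [mul_smul, htb, hta]⟩
  set s := t ^ Nat.card H with hs
  have hpow : ∀ i : ℕ, (t * t) ^ i • a = a ∧ (t * t) ^ i • b = b := fun i => (pow_mem htt i : _)
  have hsa : s • a = b := by
    rw [hs, hk, pow_succ', pow_mul, pow_two, mul_smul, (hpow k).1, hta]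
  have hsb : s • b = a := by
    rw [hs, hk, pow_succ', pow_mul, pow_two, mul_smul, (hpow k).2, htb]
  have hss : s * s = 1 := by
    rw [hs, ← pow_add, ← two_mul, pow_mul, pow_two]
    have := congrArg Subtype.val (pow_card_eq_one' (x := (⟨t * t, htt⟩ : H)))
    simpa only [Subgroup.coe_pow, Subgroup.coe_one] using this
  haveI := hZ.1
  have hs1 : s ≠ 1 := fun e => hab (by rw [← hsa, e, one_smul])
  have hsinv : s⁻¹ = s := inv_eq_of_mul_eq_one_right hss
  haveI : Fact (Nat.Prime 2) := ⟨Nat.prime_two⟩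
  have htwo : ∀ c c' : Ω, c ≠ c' → s • c = c → s • c' = c' → False := by
    intro c c' hcc hc hc'
    obtain ⟨g, h1, h2⟩ := exists_map_pair hZ hcc hab
    have hm : g * s * g⁻¹ ∈ H :=
      ⟨show (g * s * g⁻¹) • a = a by rw [mul_smul, mul_smul, inv_smul_eq_iff.mpr h1.symm, hc, h1],
       show (g * s * g⁻¹) • b = b by rw [mul_smul, mul_smul, inv_smul_eq_iff.mpr h2.symm, hc', h2]⟩
    have hd2 := Subgroup.orderOf_dvd_natCard H hm
    rw [orderOf_eq_prime (p := 2) (by rw [conj_pow, pow_two, hss, mul_one, mul_inv_cancel])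
      (fun e => hs1 (conj_eq_one_iff.mp e))] at hd2
    change 2 ∣ Nat.card H at hd2
    rw [show Nat.card H = 2 * k + 1 from hk] at hd2
    omega
  obtain ⟨c, hc⟩ := Equiv.Perm.exists_fixed_point_of_prime (p := 2) (n := 1) hodd.not_two_dvd_nat
    (σ := MulAction.toPerm s) (by
      rw [pow_one, pow_two]
      exact Equiv.ext fun x => by simp [smul_smul, hss])
  have hc' : s • c = c := hc
  have hca : c ≠ a := fun e => hab (by rw [← e, ← hc', e, hsa])
  have hcb : c ≠ b := fun e => hab (by rw [← e, ← hc', e, hsb])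
  refine ⟨s, hsa, hsb, hss, ?_⟩
  let φ : H → H := fun x => ⟨(x : G)⁻¹ * (s * x * s),
    mul_mem (inv_mem x.2)
      ⟨show (s * (x : G) * s) • a = a by
        rw [mul_smul, mul_smul, hsa, show (x : G) • b = b from x.2.2, hsb],
       show (s * (x : G) * s) • b = b by
        rw [mul_smul, mul_smul, hsb, show (x : G) • a = a from x.2.1, hsa]⟩⟩
  have hφ : Function.Injective φ := by
    intro x y e
    have e' : (x : G)⁻¹ * (s * x * s) = (y : G)⁻¹ * (s * y * s) := congrArg Subtype.val e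
    have hcomm : s * ((y : G) * (x : G)⁻¹) = (y : G) * (x : G)⁻¹ * s := by
      calc s * ((y : G) * (x : G)⁻¹) = y * ((y : G)⁻¹ * (s * y * s)) * (s * (x : G)⁻¹) := by
            rw [mul_inv_cancel_left, mul_assoc (s * y) s, ← mul_assoc s s, hss, one_mul]
            simp [mul_assoc]
        _ = _ := by
            rw [← e']; simp only [mul_assoc]
            rw [← mul_assoc s s, hss, one_mul, mul_inv_cancel, mul_one]
    have hfix : s • (((y : G) * (x : G)⁻¹) • c) = ((y : G) * (x : G)⁻¹) • c := by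
      rw [smul_smul, hcomm, mul_smul, hc']
    by_cases hmove : ((y : G) * (x : G)⁻¹) • c = c
    · have hm : (y : G) * (x : G)⁻¹ ∈ H := mul_mem y.2 (inv_mem x.2)
      exact Subtype.ext (mul_inv_eq_one.mp
        (eq_one_of_fix3 hZ hab hcb.symm hca.symm hm.1 hm.2 hmove)).symm
    · exact (htwo _ _ hmove hfix hc').elim
  intro x hx
  obtain ⟨y, hy⟩ := (Finite.injective_iff_surjective.mp hφ) ⟨x, hx⟩
  have hy' : (y : G)⁻¹ * (s * y * s) = x := congrArg Subtype.val hy
  rw [← hy', hsinv]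
  simp only [mul_inv_rev, inv_inv, hsinv, mul_assoc, hss, mul_one]

end Cfsg.Agent.Lib.Zass
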